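import Cfsg.Agent.Lib.Dade.Basic
import Cfsg.Agent.Lib.Char.Induced
import Cfsg.Agent.Lib.Coprime.Action
import Mathlib.Tactic

/-! The subgroups attached to subsets of `A` and the coset count used for Dade's formula. -/

set_option autoImplicit false

namespace Cfsg.Agent.Lib.Dade

open Cfsg Cfsg.Agent.Lib.Char
open scoped Pointwise

variable {G : Type*} [Group G] {A : Set G} {L : Subgroup G} {H : G → Subgroup G}

/-- The intersection of the `H b`. -/
def setH (H : G → Subgroup G) (B : Finset L) : Subgroup G := ⨅ b ∈ B, H (b : G)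

theorem mem_setH {B : Finset L} {u : G} : u ∈ setH H B ↔ ∀ b ∈ B, u ∈ H (b : G) := by
  simp [setH, Subgroup.mem_iInf]

open scoped Classical in
/-- Conjugation of subsets of `L`. -/
noncomputable def conjSet (l : L) (B : Finset L) : Finset L := B.image fun b => l * b * l⁻¹

theorem conjSet_one (B : Finset L) : conjSet 1 B = B := by
  classical
  simp [conjSet]

theorem conjSet_mul (l m : L) (B : Finset L) : conjSet (l * m) B = conjSet l (conjSet m B) := by
  classical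
  simp only [conjSet, Finset.image_image]
  refine Finset.image_congr fun b _ => ?_
  simp [mul_assoc]

theorem mem_conjSet {l b : L} {B : Finset L} : b ∈ conjSet l B ↔ l⁻¹ * b * l ∈ B := by
  classical
  simp only [conjSet, Finset.mem_image]
  constructor
  · rintro ⟨c, hc, rfl⟩
    simpa [mul_assoc] using hc
  · exact fun h => ⟨_, h, by group⟩

theorem conjSet_mem_A (hD : DadeHypothesis A L H) {B : Finset L} (hB : ∀ b ∈ B, (b : G) ∈ A)
    (l : L) : ∀ b ∈ conjSet l B, (b : G) ∈ A := by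
  intro b hb
  have h := hD.conj_mem l l.2 _ (hB _ (mem_conjSet.mp hb))
  have e : (l : G) * ((l⁻¹ * b * l : L) : G) * (l : G)⁻¹ = b := by simp [mul_assoc]
  rwa [e] at h

/-- The stabiliser of a subset. -/
noncomputable def setN (B : Finset L) : Subgroup L where
  carrier := {l | conjSet l B = B}
  one_mem' := conjSet_one B
  mul_mem' {a b} ha hb := by
    show conjSet (a * b) B = B
    rw [conjSet_mul, show conjSet b B = B from hb, show conjSet a B = B from ha]
  inv_mem' {a} ha := by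
    show conjSet a⁻¹ B = B
    conv_lhs => rw [← (show conjSet a B = B from ha)]
    rw [← conjSet_mul, inv_mul_cancel, conjSet_one]

theorem mem_setN {B : Finset L} {l : L} : l ∈ setN B ↔ conjSet l B = B := Iff.rfl

variable [Finite G]

theorem setH_conj_mem (hD : DadeHypothesis A L H) {B : Finset L} (hB : ∀ b ∈ B, (b : G) ∈ A)
    {l : L} {u : G} (hu : u ∈ setH H B) : (l : G) * u * (l : G)⁻¹ ∈ setH H (conjSet l B) := by
  rw [mem_setH] at hu ⊢
  intro b hb
  have h := S1498.conj_mem hD (hB _ (mem_conjSet.mp hb)) l.2 (hu _ (mem_conjSet.mp hb))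
  have e : (l : G) * ((l⁻¹ * b * l : L) : G) * (l : G)⁻¹ = b := by simp [mul_assoc]
  rwa [e] at h

theorem setN_normalizes (hD : DadeHypothesis A L H) {B : Finset L} (hB : ∀ b ∈ B, (b : G) ∈ A)
    {l : L} (hl : l ∈ setN B) : (l : G) ∈ Subgroup.normalizer (setH H B : Set G) := by
  intro u
  constructor
  · intro hu
    have := setH_conj_mem hD hB (l := l) hu
    rwa [mem_setN.mp hl] at this
  · intro hu
    have := setH_conj_mem hD hB (l := l⁻¹) hu
    rw [mem_setN.mp ((setN B).inv_mem hl)] at this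
    simpa [mul_assoc] using this

omit [Finite G] in
theorem setH_inf_L (hD : DadeHypothesis A L H) {B : Finset L} (hne : B.Nonempty)
    (hB : ∀ b ∈ B, (b : G) ∈ A) {u : G} (hu : u ∈ setH H B) (hL : u ∈ L) : u = 1 := by
  obtain ⟨b, hb⟩ := hne
  have hub := mem_setH.mp hu b hb
  have h : u ∈ H (b : G) ⊓ (L ⊓ Subgroup.centralizer ({(b : G)} : Set G)) :=
    ⟨hub, hL, hD.le_centralizer _ (hB b hb) hub⟩
  rwa [hD.inf_eq_bot _ (hB b hb), Subgroup.mem_bot] at h

open scoped Classical in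
theorem setH_inf_centralizer (hD : DadeHypothesis A L H) {B : Finset L} (hne : B.Nonempty)
    (hB : ∀ b ∈ B, (b : G) ∈ A) {l : L} (hl : (l : G) ∈ A) :
    setH H B ⊓ Subgroup.centralizer ({(l : G)} : Set G) = setH H (insert l B) := by
  ext u
  rw [Subgroup.mem_inf, mem_setH, mem_setH]
  constructor
  · rintro ⟨hu, hc⟩ b hb
    rcases Finset.mem_insert.mp hb with rfl | hb
    · obtain ⟨b', hb'⟩ := hne
      exact S1498.mem_H_of_coprime hD hl hc
        (Nat.Coprime.coprime_dvd_left (Subgroup.orderOf_dvd_natCard _ (hu b' hb'))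
          (hD.coprime _ (hB b' hb') _ hl))
    · exact hu b hb
  · exact fun hu => ⟨fun b hb => hu b (Finset.mem_insert_of_mem hb),
      hD.le_centralizer _ hl (hu l (Finset.mem_insert_self _ _))⟩

/-- In a coset of a coprime normalised subgroup, count by the centralised part. -/
theorem card_coset_centralized (K : Subgroup G) {l : G} (hl : l ∈ Subgroup.normalizer (K : Set G))
    (hco : (orderOf l).Coprime (Nat.card K)) (g : G) :
    Nat.card {x : G // x⁻¹ * g * x * l⁻¹ ∈ K} *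
        Nat.card ↥(K ⊓ Subgroup.centralizer ({l} : Set G)) =
      Nat.card {x : G // x⁻¹ * g * x * l⁻¹ ∈ K ⊓ Subgroup.centralizer ({l} : Set G)} * Nat.card K := by
  classical
  set D := K ⊓ Subgroup.centralizer ({l} : Set G) with hD
  have hnorm : ∀ u ∈ K, l * u * l⁻¹ ∈ K := fun u hu => (hl u).mp hu
  obtain ⟨e, he1, he0⟩ := Nat.chineseRemainder hco 1 0
  have hle : l ^ e = l := by
    have := (pow_eq_pow_iff_modEq (x := l)).mpr he1
    rwa [pow_one] at this
  have hKe : ∀ d ∈ K, d ^ e = 1 := fun d hd => orderOf_dvd_iff_pow_eq_one.mp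
    ((Subgroup.orderOf_dvd_natCard _ hd).trans (Nat.modEq_zero_iff_dvd.mp he0))
  have hDe : ∀ d ∈ D, (d * l) ^ e = l := fun d hd => by
    have hc : Commute d l := Subgroup.mem_centralizer_singleton_iff.mp hd.2
    rw [hc.mul_pow, hle, hKe d hd.1, one_mul]
  -- every element of the coset is conjugate into the centralised part
  have hsec : ∀ x : {x : G // x⁻¹ * g * x * l⁻¹ ∈ K}, ∃ k ∈ K,
      (x.1 * k⁻¹)⁻¹ * g * (x.1 * k⁻¹) * l⁻¹ ∈ D := by
    intro ⟨x, hx⟩
    show ∃ k ∈ K, (x * k⁻¹)⁻¹ * g * (x * k⁻¹) * l⁻¹ ∈ D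
    set k₀ := x⁻¹ * g * x * l⁻¹ with hk₀
    set y := x⁻¹ * g * x with hy
    have hyk : y = k₀ * l := by rw [hk₀]; group
    set z := y ^ e with hz
    set A0 := Subgroup.zpowers l with hA0
    have hAN : A0 ≤ Subgroup.normalizer (K : Set G) := Subgroup.zpowers_le.mpr hl
    have hy_mem : y ∈ A0 ⊔ K := by
      rw [hyk]
      exact mul_mem (Subgroup.mem_sup_right hx) (Subgroup.mem_sup_left (Subgroup.mem_zpowers l))
    -- powers of `y` are powers of `l` modulo `K`
    have hmod : ∀ j : ℕ, y ^ j * (l ^ j)⁻¹ ∈ K := by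
      intro j
      induction j with
      | zero => simp
      | succ j ih =>
        have hn : ∀ u ∈ K, l ^ j * u * (l ^ j)⁻¹ ∈ K := fun u hu =>
          ((pow_mem hl j : l ^ j ∈ Subgroup.normalizer (K : Set G)) u).mp hu
        have e1 : y ^ (j + 1) * (l ^ (j + 1))⁻¹ =
            (y ^ j * (l ^ j)⁻¹) * (l ^ j * k₀ * (l ^ j)⁻¹) := by
          rw [pow_succ y j, pow_succ l j, hyk]; group
        rw [e1]
        exact K.mul_mem ih (hn _ hx)
    have hzl : z * l⁻¹ ∈ K := by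
      have := hmod e
      rwa [hle] at this
    have hd : ∀ i : ℤ, l ^ i ∈ K → l ^ i = 1 := fun i hi => by
      have h : l ^ i ∈ A0 ⊓ K := ⟨Subgroup.zpow_mem _ (Subgroup.mem_zpowers l) i, hi⟩
      rwa [Coprime.inf_eq_bot_of_coprime (by rw [hA0, Nat.card_zpowers]; exact hco),
        Subgroup.mem_bot] at h
    have hyo : y ^ orderOf l ∈ K := by
      have := hmod (orderOf l)
      rwa [pow_orderOf_eq_one, inv_one, mul_one] at this
    have hzo : z ^ orderOf l = 1 := by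
      rw [hz, ← pow_mul, mul_comm, pow_mul]
      exact hKe _ hyo
    have hzpl : ∀ j : ℕ, z ^ j * (l ^ j)⁻¹ ∈ K := by
      intro j
      have h2 : l ^ (e * j) = l ^ j := by rw [pow_mul, hle]
      have h3 := hmod (e * j)
      rwa [h2, pow_mul, ← hz] at h3
    have hoz : orderOf z = orderOf l := by
      refine Nat.dvd_antisymm (orderOf_dvd_of_pow_eq_one hzo) ?_
      have h3 := hzpl (orderOf z)
      rw [pow_orderOf_eq_one, one_mul, K.inv_mem_iff, ← zpow_natCast] at h3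
      have h4 := hd _ h3
      rw [zpow_natCast] at h4
      exact orderOf_dvd_of_pow_eq_one h4
    obtain ⟨n, hn, hnA⟩ := Coprime.exists_conj_eq_of_le_sup hAN
      (by rw [hA0, Nat.card_zpowers]; exact hco)
      (Or.inl (Group.isSolvable_of_comm fun a b => mul_comm' a b))
      (Subgroup.zpowers_le.mpr (pow_mem hy_mem e))
      (by rw [hA0, Nat.card_zpowers, Nat.card_zpowers, ← hz, hoz])
    have h5 : n * l * n⁻¹ ∈ Subgroup.zpowers z :=
      hnA ▸ Subgroup.smul_mem_pointwise_smul l (MulAut.conj n) A0 (Subgroup.mem_zpowers l)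
    have hcomm : Commute y (n * l * n⁻¹) := by
      obtain ⟨i, hi⟩ := Subgroup.mem_zpowers_iff.mp h5
      rw [← hi]
      exact ((Commute.refl y).pow_right e).zpow_right i
    refine ⟨n⁻¹, K.inv_mem hn, ⟨?_, ?_⟩⟩
    · have h6 : l * n * l⁻¹ ∈ K := hnorm n hn
      have e1 : (x * n⁻¹⁻¹)⁻¹ * g * (x * n⁻¹⁻¹) * l⁻¹ = n⁻¹ * k₀ * (l * n * l⁻¹) := by
        rw [hk₀, hy]; group
      rw [SetLike.mem_coe, e1]
      exact K.mul_mem (K.mul_mem (K.inv_mem hn) hx) h6
    · refine Subgroup.mem_centralizer_singleton_iff.mpr ?_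
      have h7 : Commute (n⁻¹ * y * n) l := by
        show n⁻¹ * y * n * l = l * (n⁻¹ * y * n)
        calc n⁻¹ * y * n * l = n⁻¹ * (y * (n * l * n⁻¹)) * n := by group
          _ = n⁻¹ * ((n * l * n⁻¹) * y) * n := by rw [hcomm.eq]
          _ = l * (n⁻¹ * y * n) := by group
      have e2 : (x * n⁻¹⁻¹)⁻¹ * g * (x * n⁻¹⁻¹) * l⁻¹ = (n⁻¹ * y * n) * l⁻¹ := by rw [hy]; group
      rw [e2]
      exact (h7.mul_left (Commute.refl l).inv_left).eq
  choose k hkK hk using hsec
  rw [← Nat.card_prod, ← Nat.card_prod]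
  refine Nat.card_congr (Equiv.ofBijective (fun p : {x : G // x⁻¹ * g * x * l⁻¹ ∈ K} × D =>
    ((⟨p.1.1 * (k p.1)⁻¹ * (p.2 : G), ?_⟩ : {x : G // x⁻¹ * g * x * l⁻¹ ∈ D}),
      (⟨(p.2 : G)⁻¹ * k p.1, K.mul_mem (K.inv_mem p.2.2.1) (hkK p.1)⟩ : K))) ⟨fun p q h => ?_,
      fun q => ?_⟩)
  · have hc : Commute (p.2 : G) l := Subgroup.mem_centralizer_singleton_iff.mp p.2.2.2
    have e1 : (p.1.1 * (k p.1)⁻¹ * (p.2 : G))⁻¹ * g * (p.1.1 * (k p.1)⁻¹ * (p.2 : G)) * l⁻¹ =
        (p.2 : G)⁻¹ * ((p.1.1 * (k p.1)⁻¹)⁻¹ * g * (p.1.1 * (k p.1)⁻¹) * l⁻¹) * (l * p.2 * l⁻¹) := by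
      group
    rw [e1, show l * (p.2 : G) * l⁻¹ = p.2 by rw [← hc.eq, mul_inv_cancel_right]]
    exact D.mul_mem (D.mul_mem (D.inv_mem p.2.2) (hk p.1)) p.2.2
  · obtain ⟨h1, h2⟩ := Prod.mk.injEq .. ▸ h
    have h1' : p.1.1 * (k p.1)⁻¹ * (p.2 : G) = q.1.1 * (k q.1)⁻¹ * (q.2 : G) := congrArg Subtype.val h1
    have h2' : (p.2 : G)⁻¹ * k p.1 = (q.2 : G)⁻¹ * k q.1 := congrArg Subtype.val h2
    have hx : p.1.1 = q.1.1 := by
      calc p.1.1 = (p.1.1 * (k p.1)⁻¹ * (p.2 : G)) * ((p.2 : G)⁻¹ * k p.1) := by group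
        _ = (q.1.1 * (k q.1)⁻¹ * (q.2 : G)) * ((q.2 : G)⁻¹ * k q.1) := by rw [h1', h2']
        _ = q.1.1 := by group
    have hp : p.1 = q.1 := Subtype.ext hx
    rw [hp] at h2'
    exact Prod.ext hp (Subtype.ext (inv_injective (mul_right_cancel h2')))
  · obtain ⟨⟨x', hx'⟩, ⟨j, hj⟩⟩ := q
    have hc' : ∀ d ∈ D, Commute d l := fun d hd => Subgroup.mem_centralizer_singleton_iff.mp hd.2
    have hxK : (x' * j)⁻¹ * g * (x' * j) * l⁻¹ ∈ K := by
      have e1 : (x' * j)⁻¹ * g * (x' * j) * l⁻¹ =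
          j⁻¹ * (x'⁻¹ * g * x' * l⁻¹) * (l * j * l⁻¹) := by group
      rw [e1]
      exact K.mul_mem (K.mul_mem (K.inv_mem hj) hx'.1) (hnorm j hj)
    set c := k ⟨x' * j, hxK⟩ with hc
    set w := c * j⁻¹ with hw
    have hwK : w ∈ K := K.mul_mem (hkK _) (K.inv_mem hj)
    have h1 := hk ⟨x' * j, hxK⟩
    simp only [← hc] at h1
    have e2 : (x' * j * c⁻¹)⁻¹ * g * (x' * j * c⁻¹) * l⁻¹ * l =
        w * ((x'⁻¹ * g * x' * l⁻¹) * l) * w⁻¹ := by rw [hw]; group
    have hwl : w * l * w⁻¹ = l := by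
      have h2 := hDe _ h1
      rw [e2, conj_pow, hDe _ hx'] at h2
      exact h2
    have hwD : w ∈ D := ⟨hwK, Subgroup.mem_centralizer_singleton_iff.mpr (mul_inv_eq_iff_eq_mul.mp hwl)⟩
    refine ⟨(⟨x' * j, hxK⟩, ⟨w, hwD⟩), ?_⟩
    refine Prod.ext (Subtype.ext ?_) (Subtype.ext ?_)
    · show x' * j * (k ⟨x' * j, hxK⟩)⁻¹ * w = x'
      rw [hw, ← hc]; group
    · show w⁻¹ * k ⟨x' * j, hxK⟩ = j
      rw [hw, ← hc]; group

end Cfsg.Agent.Lib.Dade
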