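import Cfsg.Agent.Lib.Dade.Subsets
import Cfsg.Agent.Lib.Char.BrauerInduction
import Mathlib.Tactic

/-! Dade's formula: the Dade map sends virtual characters to virtual characters. -/

set_option autoImplicit false

namespace Cfsg.Agent.Lib.Dade

open Cfsg Cfsg.Agent.Lib.Char
open scoped Pointwise ComplexConjugate

theorem sum_stabilizer_mul {X : Type*} [Fintype X] {L : Type*} [Group L] [Finite L] [MulAction L X]
    (f : X → ℤ) (hf : ∀ (l : L) (x : X), f (l • x) = f x) :
    ∃ z : ℤ, ∑ x : X, (Nat.card (MulAction.stabilizer L x) : ℤ) * f x = (Nat.card L : ℤ) * z := by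
  classical
  have := Fintype.ofFinite L
  have := Fintype.ofFinite (MulAction.orbitRel.Quotient L X)
  refine ⟨∑ ω : MulAction.orbitRel.Quotient L X, f (Quotient.out ω), ?_⟩
  rw [Finset.mul_sum, ← Finset.sum_fiberwise Finset.univ (fun x : X => (Quotient.mk'' x :
    MulAction.orbitRel.Quotient L X))]
  refine Finset.sum_congr rfl fun ω _ => ?_
  set F := Finset.univ.filter fun x : X => (Quotient.mk'' x : MulAction.orbitRel.Quotient L X) = ω
    with hF
  have hmem : ∀ x ∈ F, ∀ y : X, y ∈ F ↔ y ∈ MulAction.orbit L x := by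
    intro x hx y
    rw [← MulAction.orbitRel_apply, ← Quotient.eq'', (Finset.mem_filter.mp hx).2, hF, Finset.mem_filter]
    simp
  have hterm : ∀ x ∈ F, (F.card : ℤ) * ((Nat.card (MulAction.stabilizer L x) : ℤ) * f x) =
      (Nat.card L : ℤ) * f (Quotient.out ω) := by
    intro x hx
    have hcard : F.card * Nat.card (MulAction.stabilizer L x) = Nat.card L := by
      rw [Nat.card_eq_fintype_card, Nat.card_eq_fintype_card,
        ← MulAction.card_orbit_mul_card_stabilizer_eq_card_group L x, Fintype.card_ofFinset]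
      congr 1
      exact congrArg Finset.card (Finset.ext fun y => by
        rw [hmem x hx y, Finset.mem_filter]; exact ⟨fun h => ⟨Finset.mem_univ _, h⟩, fun h => h.2⟩)
    have hfx : f x = f (Quotient.out ω) := by
      have : Quotient.out ω ∈ F := Finset.mem_filter.mpr ⟨Finset.mem_univ _, Quotient.out_eq' ω⟩
      obtain ⟨l, hl⟩ := (hmem x hx _).mp this
      rw [← hl, hf]
    rw [hfx, ← mul_assoc, ← Nat.cast_mul, hcard]
  have hne : (F.card : ℤ) ≠ 0 := Nat.cast_ne_zero.mpr (Finset.card_ne_zero.mpr
    ⟨Quotient.out ω, Finset.mem_filter.mpr ⟨Finset.mem_univ _, Quotient.out_eq' ω⟩⟩)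
  refine mul_left_cancel₀ hne ?_
  rw [Finset.mul_sum, Finset.sum_congr rfl hterm, Finset.sum_const, nsmul_eq_mul]

variable {G : Type*} [Group G] {A : Set G} {L : Subgroup G} {H : G → Subgroup G}

/-- The subgroup `H_B N_L(B)`. -/
noncomputable def setM (H : G → Subgroup G) (B : Finset L) : Subgroup G :=
  setH H B ⊔ (setN B).map L.subtype

variable [Finite G]

theorem map_setN_le (hD : DadeHypothesis A L H) {B : Finset L} (hB : ∀ b ∈ B, (b : G) ∈ A) :
    (setN B).map L.subtype ≤ Subgroup.normalizer (setH H B : Set G) := by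
  rintro _ ⟨l, hl, rfl⟩
  exact setN_normalizes hD hB hl

theorem exists_of_mem_setM (hD : DadeHypothesis A L H) {B : Finset L} (hB : ∀ b ∈ B, (b : G) ∈ A)
    {y : G} (hy : y ∈ setM H B) : ∃ l ∈ setN B, y * (l : G)⁻¹ ∈ setH H B := by
  have hy' : y ∈ (setN B).map L.subtype ⊔ setH H B := by rwa [sup_comm]
  obtain ⟨_, ⟨l, hl, rfl⟩, n, hn, rfl⟩ :=
    (Coprime.mem_sup_of_le_normalizer (map_setN_le hD hB)).mp hy'
  exact ⟨l, hl, (setN_normalizes hD hB hl n).mp hn⟩

omit [Finite G] in
theorem mem_setM_of {B : Finset L} {y : G} {l : L} (hl : l ∈ setN B)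
    (hy : y * (l : G)⁻¹ ∈ setH H B) : y ∈ setM H B := by
  have := Subgroup.mul_mem_sup (S := setH H B) (T := (setN B).map L.subtype) hy
    (Subgroup.mem_map_of_mem L.subtype hl)
  simpa [setM] using this

omit [Finite G] in
theorem setM_unique (hD : DadeHypothesis A L H) {B : Finset L} (hne : B.Nonempty)
    (hB : ∀ b ∈ B, (b : G) ∈ A) {y : G} {l m : L}
    (hl : y * (l : G)⁻¹ ∈ setH H B) (hm : y * (m : G)⁻¹ ∈ setH H B) : l = m := by
  have h : (l : G) * (m : G)⁻¹ ∈ setH H B := by
    have := (setH H B).mul_mem ((setH H B).inv_mem hl) hm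
    rwa [mul_inv_rev, inv_inv, mul_assoc, inv_mul_cancel_left] at this
  exact Subtype.ext (mul_inv_eq_one.mp (setH_inf_L hD hne hB h (L.mul_mem l.2 (L.inv_mem m.2))))

/-- The projection of `H_B N_L(B)` onto its second factor. -/
noncomputable def projM (hD : DadeHypothesis A L H) {B : Finset L} (hne : B.Nonempty)
    (hB : ∀ b ∈ B, (b : G) ∈ A) : setM H B →* L :=
  MonoidHom.mk' (fun y => (exists_of_mem_setM hD hB y.2).choose) fun y z => by
    obtain ⟨hy1, hy2⟩ := (exists_of_mem_setM hD hB y.2).choose_spec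
    obtain ⟨hz1, hz2⟩ := (exists_of_mem_setM hD hB z.2).choose_spec
    obtain ⟨-, h2⟩ := (exists_of_mem_setM hD hB (y * z).2).choose_spec
    refine setM_unique hD hne hB h2 ?_
    generalize (exists_of_mem_setM hD hB y.2).choose = a at hy1 hy2 ⊢
    generalize (exists_of_mem_setM hD hB z.2).choose = c at hz1 hz2 ⊢
    have e : (y : G) * z * ((a * c : L) : G)⁻¹ =
        ((y : G) * (a : G)⁻¹) * ((a : G) * ((z : G) * (c : G)⁻¹) * (a : G)⁻¹) := by
      simp [mul_assoc]
    rw [Subgroup.coe_mul, e]
    exact (setH H B).mul_mem hy2 ((setN_normalizes hD hB hy1 _).mp hz2)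

theorem card_setM (hD : DadeHypothesis A L H) {B : Finset L} (hne : B.Nonempty)
    (hB : ∀ b ∈ B, (b : G) ∈ A) :
    Nat.card (setM H B) = Nat.card (setH H B) * Nat.card (setN B) := by
  have h := Coprime.card_sup_mul_card_inf_of_le_normalizer (map_setN_le hD hB)
  have hb : (setN B).map L.subtype ⊓ setH H B = ⊥ := by
    rw [eq_bot_iff]
    rintro x ⟨⟨l, -, rfl⟩, hx⟩
    exact Subgroup.mem_bot.mpr (setH_inf_L hD hne hB hx l.2)
  rw [hb, Subgroup.card_bot, mul_one, Subgroup.card_subtype, sup_comm] at h
  rw [setM, h, mul_comm]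

variable [Fintype G] [Fintype L]

open scoped Classical in
/-- The summand of Dade's formula. -/
noncomputable def psiB (H : G → Subgroup G) (α : L → ℂ) (B : Finset L) (g : G) : ℂ :=
  (Nat.card (setH H B) : ℂ)⁻¹ * ∑ l ∈ Finset.univ.filter (fun l => l ∈ setN B),
    α l * (Nat.card {x : G // x⁻¹ * g * x * (l : G)⁻¹ ∈ setH H B} : ℂ)

open scoped Classical in
theorem indFun_setM (hD : DadeHypothesis A L H) (α : L → ℂ) {B : Finset L} (hne : B.Nonempty)
    (hB : ∀ b ∈ B, (b : G) ∈ A) (g : G) :
    indFun (setM H B) (fun y => α (projM hD hne hB y)) g =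
      (Nat.card (setN B) : ℂ)⁻¹ * psiB H α B g := by
  have hext : ∀ y : G, extendByZero (setM H B) (fun y => α (projM hD hne hB y)) y =
      ∑ l ∈ Finset.univ.filter (fun l => l ∈ setN B),
        if y * (l : G)⁻¹ ∈ setH H B then α l else 0 := by
    intro y
    by_cases hy : y ∈ setM H B
    · rw [extendByZero_mem _ _ hy]
      obtain ⟨h1, h2⟩ := (exists_of_mem_setM hD hB hy).choose_spec
      rw [Finset.sum_eq_single (exists_of_mem_setM hD hB hy).choose]
      · rw [if_pos h2]
        rfl
      · intro l _ hl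
        exact if_neg fun h => hl (setM_unique hD hne hB h h2)
      · exact fun h => absurd (Finset.mem_filter.mpr ⟨Finset.mem_univ _, h1⟩) h
    · rw [extendByZero_not_mem _ _ hy, Finset.sum_eq_zero fun l hl => ?_]
      exact if_neg fun h => hy (mem_setM_of (Finset.mem_filter.mp hl).2 h)
  simp only [indFun, hext]
  rw [Finset.sum_comm, psiB, card_setM hD hne hB, Nat.cast_mul, mul_inv,
    mul_comm (Nat.card (setH H B) : ℂ)⁻¹, mul_assoc]
  congr 2
  refine Finset.sum_congr rfl fun l _ => ?_
  rw [← Finset.sum_filter, Finset.sum_const, nsmul_eq_mul, mul_comm, Nat.card_eq_fintype_card,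
    Fintype.card_subtype]

theorem setH_conjSet (hD : DadeHypothesis A L H) {B : Finset L} (hB : ∀ b ∈ B, (b : G) ∈ A)
    (l : L) (u : G) : (l : G) * u * (l : G)⁻¹ ∈ setH H (conjSet l B) ↔ u ∈ setH H B := by
  refine ⟨fun h => ?_, fun h => setH_conj_mem hD hB h⟩
  have := setH_conj_mem hD (conjSet_mem_A hD hB l) (l := l⁻¹) h
  rw [← conjSet_mul, inv_mul_cancel, conjSet_one] at this
  simpa [mul_assoc] using this

omit [Finite G] [Fintype G] [Fintype L] in
theorem setN_conjSet {B : Finset L} (l m : L) : l * m * l⁻¹ ∈ setN (conjSet l B) ↔ m ∈ setN B := by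
  rw [mem_setN, mem_setN, ← conjSet_mul, show l * m * l⁻¹ * l = l * m by group, conjSet_mul]
  refine ⟨fun h => ?_, fun h => by rw [h]⟩
  have := congrArg (conjSet l⁻¹) h
  simp only [← conjSet_mul, inv_mul_cancel_left, inv_mul_cancel, conjSet_one] at this
  exact this

open scoped Classical in
theorem psiB_conjSet (hD : DadeHypothesis A L H) {α : L → ℂ} (hα : IsClassFunction L α)
    {B : Finset L} (hB : ∀ b ∈ B, (b : G) ∈ A) (l₀ : L) :
    psiB H α (conjSet l₀ B) = psiB H α B := by
  funext g
  unfold psiB
  have hc : Nat.card (setH H (conjSet l₀ B)) = Nat.card (setH H B) :=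
    (Nat.card_congr ((MulAut.conj (l₀ : G)).toEquiv.subtypeEquiv fun u =>
      (setH_conjSet hD hB l₀ u).symm)).symm
  rw [hc]
  congr 1
  refine (Finset.sum_equiv (MulAut.conj l₀).toEquiv (fun m => ?_) fun m _ => ?_).symm
  · simp only [Finset.mem_filter, Finset.mem_univ, true_and]
    exact (setN_conjSet l₀ m).symm
  · have h1 : α (l₀ * m * l₀⁻¹) = α m := hα m l₀
    show _ = α (l₀ * m * l₀⁻¹) * _
    rw [h1]
    congr 2
    refine Nat.card_congr ((Equiv.mulRight (l₀ : G)⁻¹).subtypeEquiv fun x => ?_)
    rw [← setH_conjSet hD hB l₀]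
    refine iff_of_eq (congrArg (· ∈ _) ?_)
    show _ = (x * (l₀ : G)⁻¹)⁻¹ * g * (x * (l₀ : G)⁻¹) * ((l₀ * m * l₀⁻¹ : L) : G)⁻¹
    simp [mul_assoc]

open scoped Classical in
/-- The subsets in Dade's formula. -/
noncomputable def subsetsA (A : Set G) (L : Subgroup G) [Fintype L] : Finset (Finset L) :=
  Finset.univ.filter fun B => B.Nonempty ∧ ∀ b ∈ B, (b : G) ∈ A

open scoped Classical in
/-- Dade's formula. -/
theorem dade_eq_sum (hD : DadeHypothesis A L H) {α : L → ℂ} (hα : IsClassFunction L α)
    (hαA : ∀ x : L, (x : G) ∉ A → α x = 0) (g : G) :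
    dadeIsometry A L H α g =
      -(Nat.card L : ℂ)⁻¹ * ∑ B ∈ subsetsA A L, (-1 : ℂ) ^ B.card * psiB H α B g := by
  let T : Subgroup G → L → ℂ := fun K l =>
    (Nat.card K : ℂ)⁻¹ * (Nat.card {x : G // x⁻¹ * g * x * (l : G)⁻¹ ∈ K} : ℂ)
  have hexpand : ∑ B ∈ subsetsA A L, (-1 : ℂ) ^ B.card * psiB H α B g =
      ∑ l : L, α l * ∑ B ∈ (subsetsA A L).filter (fun B => l ∈ setN B),
        (-1 : ℂ) ^ B.card * T (setH H B) l := by
    simp only [psiB, Finset.mul_sum, Finset.sum_filter]
    rw [Finset.sum_comm]
    refine Finset.sum_congr rfl fun l _ => Finset.sum_congr rfl fun B _ => ?_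
    split_ifs
    · simp only [T]; ring
    · simp
  have hinner : ∀ l : L, (l : G) ∈ A →
      ∑ B ∈ (subsetsA A L).filter (fun B => l ∈ setN B), (-1 : ℂ) ^ B.card * T (setH H B) l =
        -T (H (l : G)) l := by
    intro l hl
    have hT : ∀ B ∈ (subsetsA A L).filter (fun B => l ∈ setN B),
        T (setH H B) l = T (setH H (insert l B)) l := by
      intro B hB
      obtain ⟨hB1, hB2⟩ := Finset.mem_filter.mp hB
      obtain ⟨-, hne, hBA⟩ := Finset.mem_filter.mp hB1
      obtain ⟨b, hb⟩ := id hne
      have hco : (orderOf (l : G)).Coprime (Nat.card (setH H B)) :=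
        (orderOf_coprime_card hD hl (hBA b hb)).coprime_dvd_right
          (Subgroup.card_dvd_of_le fun u hu => mem_setH.mp hu b hb)
      have h := card_coset_centralized (setH H B) (setN_normalizes hD hBA hB2) hco g
      rw [setH_inf_centralizer hD hne hBA hl] at h
      have h' : (Nat.card {x : G // x⁻¹ * g * x * (l : G)⁻¹ ∈ setH H B} : ℂ) *
          (Nat.card (setH H (insert l B)) : ℂ) =
          (Nat.card {x : G // x⁻¹ * g * x * (l : G)⁻¹ ∈ setH H (insert l B)} : ℂ) *
            (Nat.card (setH H B) : ℂ) := by exact_mod_cast h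
      show (Nat.card (setH H B) : ℂ)⁻¹ * _ = (Nat.card (setH H (insert l B)) : ℂ)⁻¹ * _
      field_simp [card_ne_zero_complex (setH H B), card_ne_zero_complex (setH H (insert l B))]
      linear_combination h'
    have hlN : l ∈ setN ({l} : Finset L) := by
      rw [mem_setN]; simp [conjSet, Finset.image_singleton]
    have hsing : ({l} : Finset L) ∈ (subsetsA A L).filter (fun B => l ∈ setN B) :=
      Finset.mem_filter.mpr ⟨Finset.mem_filter.mpr ⟨Finset.mem_univ _, Finset.singleton_nonempty l,
        fun b hb => (Finset.mem_singleton.mp hb).symm ▸ hl⟩, hlN⟩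
    rw [← Finset.add_sum_erase _ _ hsing]
    have hzero : ∑ B ∈ ((subsetsA A L).filter (fun B => l ∈ setN B)).erase {l},
        (-1 : ℂ) ^ B.card * T (setH H B) l = 0 := by
      refine Finset.sum_involution (fun B _ => if l ∈ B then B.erase l else insert l B) ?_ ?_ ?_ ?_
      · intro B hB
        rw [hT B (Finset.mem_of_mem_erase hB)]
        obtain ⟨hBne, hBmem⟩ := Finset.mem_erase.mp hB
        obtain ⟨hB1, hB2⟩ := Finset.mem_filter.mp hBmem
        obtain ⟨-, hne, hBA⟩ := Finset.mem_filter.mp hB1
        by_cases h : l ∈ B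
        · rw [if_pos h]
          have hne' : (B.erase l).Nonempty := by
            rw [Finset.erase_nonempty h]
            exact (Finset.nontrivial_iff_ne_singleton h).mpr hBne
          have hm : B.erase l ∈ (subsetsA A L).filter (fun B => l ∈ setN B) := by
            refine Finset.mem_filter.mpr ⟨Finset.mem_filter.mpr ⟨Finset.mem_univ _, hne',
              fun b hb => hBA b (Finset.mem_of_mem_erase hb)⟩, ?_⟩
            rw [mem_setN] at hB2 ⊢
            conv_rhs => rw [← hB2]
            ext b
            simp only [mem_conjSet, Finset.mem_erase]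
            exact and_congr_left fun _ => not_congr ⟨fun e => by
              calc b = l * (l⁻¹ * b * l) * l⁻¹ := by group
                _ = l := by rw [e]; group, fun e => by rw [e]; group⟩
          rw [hT _ hm, Finset.insert_erase h, Finset.insert_eq_of_mem h,
            ← Finset.card_erase_add_one h, pow_succ]
          ring
        · rw [if_neg h]
          have hm : insert l B ∈ (subsetsA A L).filter (fun B => l ∈ setN B) := by
            refine Finset.mem_filter.mpr ⟨Finset.mem_filter.mpr ⟨Finset.mem_univ _,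
              Finset.insert_nonempty l B, fun b hb => ?_⟩, ?_⟩
            · rcases Finset.mem_insert.mp hb with rfl | hb
              · exact hl
              · exact hBA b hb
            · rw [mem_setN] at hB2 ⊢
              conv_rhs => rw [← hB2]
              ext b
              simp only [mem_conjSet, Finset.mem_insert]
              exact or_congr_left ⟨fun e => by
                calc b = l * (l⁻¹ * b * l) * l⁻¹ := by group
                  _ = l := by rw [e]; group, fun e => by rw [e]; group⟩
          rw [hT _ hm, Finset.insert_idem, Finset.card_insert_of_notMem h, pow_succ]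
          ring
      · intro B _ _
        by_cases h : l ∈ B
        · rw [if_pos h]
          exact fun e => (Finset.erase_eq_self.mp e) h
        · rw [if_neg h]
          exact fun e => h (e ▸ Finset.mem_insert_self l B)
      · intro B hB
        obtain ⟨hBne, hBmem⟩ := Finset.mem_erase.mp hB
        obtain ⟨hB1, hB2⟩ := Finset.mem_filter.mp hBmem
        obtain ⟨-, hne, hBA⟩ := Finset.mem_filter.mp hB1
        rw [mem_setN] at hB2
        by_cases h : l ∈ B
        · rw [if_pos h]
          have hne' : (B.erase l).Nonempty := by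
            rw [Finset.erase_nonempty h]
            exact (Finset.nontrivial_iff_ne_singleton h).mpr hBne
          refine Finset.mem_erase.mpr ⟨fun e => (Finset.mem_erase.mp (e ▸ Finset.mem_singleton_self l :
            l ∈ B.erase l)).1 rfl, Finset.mem_filter.mpr ⟨Finset.mem_filter.mpr ⟨Finset.mem_univ _,
            hne', fun b hb => hBA b (Finset.mem_of_mem_erase hb)⟩, ?_⟩⟩
          rw [mem_setN]
          conv_rhs => rw [← hB2]
          ext b
          simp only [mem_conjSet, Finset.mem_erase]
          exact and_congr_left fun _ => not_congr ⟨fun e => by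
            calc b = l * (l⁻¹ * b * l) * l⁻¹ := by group
              _ = l := by rw [e]; group, fun e => by rw [e]; group⟩
        · rw [if_neg h]
          refine Finset.mem_erase.mpr ⟨fun e => ?_, Finset.mem_filter.mpr ⟨Finset.mem_filter.mpr
            ⟨Finset.mem_univ _, Finset.insert_nonempty l B, fun b hb => ?_⟩, ?_⟩⟩
          · obtain ⟨b, hb⟩ := hne
            have := Finset.mem_insert_of_mem (a := b) (b := l) hb
            rw [e] at this
            exact h (Finset.mem_singleton.mp this ▸ hb)
          · rcases Finset.mem_insert.mp hb with rfl | hb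
            · exact hl
            · exact hBA b hb
          · rw [mem_setN]
            conv_rhs => rw [← hB2]
            ext b
            simp only [mem_conjSet, Finset.mem_insert]
            exact or_congr_left ⟨fun e => by
              calc b = l * (l⁻¹ * b * l) * l⁻¹ := by group
                _ = l := by rw [e]; group, fun e => by rw [e]; group⟩
      · intro B _
        by_cases h : l ∈ B
        · simp only [if_pos h, Finset.notMem_erase, if_false, Finset.insert_erase h]
        · simp only [if_neg h, Finset.mem_insert_self, if_true, Finset.erase_insert h]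
    rw [hzero, add_zero, Finset.card_singleton, pow_one, neg_one_mul]
    have : setH H ({l} : Finset L) = H (l : G) := by
      ext u; rw [mem_setH]; simp
    rw [this]
  rw [hexpand, Finset.sum_congr rfl (g := fun l : L => if (l : G) ∈ A then α l * -T (H (l : G)) l else 0)
    fun l _ => by
      split_ifs with hl
      · rw [hinner l hl]
      · rw [hαA l hl, zero_mul], ← Finset.sum_filter]
  -- compare with the sum over the support
  let F : G → ℂ := fun y => dadeIsometry A L H α y * (Nat.card {x : G // x⁻¹ * g * x = y} : ℂ)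
  have hF : IsClassFunction G F := fun y z => by
    show dadeIsometry A L H α (z * y * z⁻¹) * _ = dadeIsometry A L H α y * _
    rw [isClassFunction_dade hD hα y z]
    congr 2
    refine Nat.card_congr ((Equiv.mulRight z).subtypeEquiv fun x => ?_)
    show x⁻¹ * g * x = z * y * z⁻¹ ↔ (x * z)⁻¹ * g * (x * z) = y
    constructor
    · intro e
      calc (x * z)⁻¹ * g * (x * z) = z⁻¹ * (x⁻¹ * g * x) * z := by group
        _ = y := by rw [e]; group
    · intro e; rw [← e]; group
  have hs := sum_supp hD hF
  rw [Finset.sum_filter_of_ne fun y _ hne => by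
    by_contra h; exact hne (by simp only [F]; rw [dade_eq_zero hD α h, zero_mul])] at hs
  have hall : ∑ y : G, F y = (Nat.card G : ℂ) * dadeIsometry A L H α g := by
    have h1 : ∀ y : G, F y = ∑ x ∈ Finset.univ.filter (fun x : G => x⁻¹ * g * x = y),
        dadeIsometry A L H α (x⁻¹ * g * x) := fun y => by
      rw [Finset.sum_congr rfl (g := fun _ => dadeIsometry A L H α y) fun x hx => by
        rw [(Finset.mem_filter.mp hx).2], Finset.sum_const, nsmul_eq_mul, mul_comm,
        ← Fintype.card_subtype, ← Nat.card_eq_fintype_card]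
    simp only [h1]
    rw [Finset.sum_fiberwise Finset.univ (fun x : G => x⁻¹ * g * x)
      (fun x => dadeIsometry A L H α (x⁻¹ * g * x)),
      Finset.sum_congr rfl (g := fun _ => dadeIsometry A L H α g) fun x _ => by
        have := isClassFunction_dade hD hα g x⁻¹
        rwa [inv_inv] at this,
      Finset.sum_const, Finset.card_univ, nsmul_eq_mul, Nat.card_eq_fintype_card]
  have havg : ∀ l : L, (l : G) ∈ A → avgH H F l = α l * T (H (l : G)) l := by
    intro l hl
    simp only [avgH, T]
    rw [finsum_mem_eq_toFinset_sum, mul_left_comm]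
    congr 1
    have h2 : (Nat.card {x : G // x⁻¹ * g * x * (l : G)⁻¹ ∈ H (l : G)} : ℂ) =
        ∑ u ∈ (H (l : G) : Set G).toFinset, (Nat.card {x : G // x⁻¹ * g * x = (l : G) * u} : ℂ) := by
      rw [← Nat.cast_sum, Nat.card_eq_fintype_card, Fintype.card_subtype,
        Finset.card_eq_sum_card_fiberwise (f := fun x => (l : G)⁻¹ * (x⁻¹ * g * x))
          (t := (H (l : G) : Set G).toFinset) (fun x hx => by
            have hu : x⁻¹ * g * x * (l : G)⁻¹ ∈ H (l : G) := (Finset.mem_filter.mp hx).2
            have hc := commute_of_mem hD hl hu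
            rw [Finset.mem_coe, Set.mem_toFinset, SetLike.mem_coe]
            have e : (l : G)⁻¹ * (x⁻¹ * g * x) = x⁻¹ * g * x * (l : G)⁻¹ := by
              rw [inv_mul_eq_iff_eq_mul, hc.eq]; group
            show (l : G)⁻¹ * (x⁻¹ * g * x) ∈ H (l : G)
            rw [e]; exact hu)]
      congr 1
      refine Finset.sum_congr rfl fun u hu => ?_
      rw [Nat.card_eq_fintype_card, Fintype.card_subtype, Finset.filter_filter]
      congr 1
      refine Finset.filter_congr fun x _ => ?_
      rw [inv_mul_eq_iff_eq_mul]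
      refine ⟨fun h => h.2, fun h => ⟨?_, h⟩⟩
      rw [h, (commute_of_mem hD hl (by simpa using hu)).eq, mul_inv_cancel_right]
      simpa using hu
    rw [h2, Finset.mul_sum]
    refine Finset.sum_congr rfl fun u hu => ?_
    simp only [F]
    rw [dade_apply hD hα hl (u := u) (by simpa using hu) (x := 1) (g := (l : G) * u) (by simp)]
  rw [Finset.sum_congr rfl (g := fun l : L => -avgH H F l) fun l hl => by
    rw [havg l (Finset.mem_filter.mp hl).2, mul_neg], Finset.sum_neg_distrib]
  rw [hall] at hs
  have hG := card_ne_zero_complex G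
  have hL := card_ne_zero_complex L
  field_simp
  exact mul_left_cancel₀ hG (by linear_combination hs)

open scoped Classical in
/-- The Dade image of a virtual character supported in `A` is a virtual character. -/
theorem isGeneralizedCharacter_dade (hD : DadeHypothesis A L H) {α : L → ℂ}
    (hgen : IsGeneralizedCharacter L α) (hαA : ∀ x : L, (x : G) ∉ A → α x = 0) :
    IsGeneralizedCharacter G (dadeIsometry A L H α) := by
  obtain ⟨χ₁, χ₂, h₁, h₂, rfl⟩ := hgen
  set α := χ₁ - χ₂ with hαdef
  have hα : IsClassFunction L α :=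
    isClassFunction_sub (isClassFunction_of_isCharacter h₁) (isClassFunction_of_isCharacter h₂)
  refine isGeneralizedCharacter_of_intCast (isClassFunction_dade hD hα) fun χ => ?_
  let X := {B : Finset L // B.Nonempty ∧ ∀ b ∈ B, (b : G) ∈ A}
  letI : MulAction L X :=
    { smul := fun l B => ⟨conjSet l B.1, B.2.1.image _, conjSet_mem_A hD B.2.2 l⟩
      one_smul := fun B => Subtype.ext (conjSet_one B.1)
      mul_smul := fun l m B => Subtype.ext (conjSet_mul l m B.1) }
  have hint : ∀ B : X, ∃ z : ℤ, classInner (fun g => (-1 : ℂ) ^ B.1.card *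
      ((Nat.card (setN B.1) : ℂ)⁻¹ * psiB H α B.1 g)) (χ : G → ℂ) = z := by
    intro B
    have hg : IsGeneralizedCharacter (setM H B.1) (fun y => α (projM hD B.2.1 B.2.2 y)) :=
      ⟨_, _, isCharacter_comp h₁ (projM hD B.2.1 B.2.2), isCharacter_comp h₂ (projM hD B.2.1 B.2.2), rfl⟩
    have := Fintype.ofFinite (setM H B.1)
    obtain ⟨z, hz⟩ := classInner_intCast hg (isCharacter_restrict (isCharacter_of_isIrr χ.2) (setM H B.1))
    refine ⟨(-1) ^ B.1.card * z, ?_⟩
    rw [show (fun g => (-1 : ℂ) ^ B.1.card * ((Nat.card (setN B.1) : ℂ)⁻¹ * psiB H α B.1 g)) =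
      (-1 : ℂ) ^ B.1.card • indFun (setM H B.1) (fun y => α (projM hD B.2.1 B.2.2 y)) from
        funext fun g => by rw [Pi.smul_apply, smul_eq_mul, indFun_setM hD α B.2.1 B.2.2],
      classInner_smul_left, classInner_indFun _ _ (isClassFunction_of_isIrr χ.2), hz]
    push_cast
    ring
  choose z hz using hint
  have hstab : ∀ B : X, Nat.card (MulAction.stabilizer L B) = Nat.card (setN B.1) := fun B =>
    Nat.card_congr (Equiv.subtypeEquivRight fun l => by
      rw [MulAction.mem_stabilizer_iff, mem_setN]; exact Subtype.ext_iff)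
  have hzinv : ∀ (l : L) (B : X), z (l • B) = z B := by
    intro l B
    have h : (z (l • B) : ℂ) = z B := by
      rw [← hz, ← hz]
      have e1 : (l • B : X).1 = conjSet l B.1 := rfl
      rw [e1, psiB_conjSet hD hα B.2.2 l,
        show (conjSet l B.1).card = B.1.card from Finset.card_image_of_injective _
          (MulAut.conj l).injective]
      have e2 : Nat.card (setN (conjSet l B.1)) = Nat.card (setN B.1) :=
        (Nat.card_congr ((MulAut.conj l).toEquiv.subtypeEquiv fun m =>
          (setN_conjSet (B := B.1) l m).symm)).symm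
      rw [e2]
    exact_mod_cast h
  obtain ⟨w, hw⟩ := sum_stabilizer_mul (L := L) z hzinv
  refine ⟨-w, ?_⟩
  have hdade : dadeIsometry A L H α = fun g => -(Nat.card L : ℂ)⁻¹ *
      ∑ B : X, (Nat.card (setN B.1) : ℂ) * ((-1 : ℂ) ^ B.1.card *
        ((Nat.card (setN B.1) : ℂ)⁻¹ * psiB H α B.1 g)) := by
    funext g
    rw [dade_eq_sum hD hα hαA g, ← Finset.sum_coe_sort]
    congr 1
    refine Fintype.sum_equiv (Equiv.subtypeEquivRight fun B => by simp [subsetsA]) _ _ fun B => ?_
    show (-1 : ℂ) ^ B.1.card * psiB H α B.1 g = _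
    rw [mul_left_comm ((-1 : ℂ) ^ _) (Nat.card (setN _) : ℂ)⁻¹, ← mul_assoc, mul_inv_cancel₀
      (card_ne_zero_complex _), one_mul]
    rfl
  rw [hdade]
  have : classInner (fun g => -(Nat.card L : ℂ)⁻¹ * ∑ B : X, (Nat.card (setN B.1) : ℂ) *
      ((-1 : ℂ) ^ B.1.card * ((Nat.card (setN B.1) : ℂ)⁻¹ * psiB H α B.1 g))) (χ : G → ℂ) =
      -(Nat.card L : ℂ)⁻¹ * ∑ B : X, (Nat.card (setN B.1) : ℂ) * (z B : ℂ) := by
    rw [show (fun g => -(Nat.card L : ℂ)⁻¹ * ∑ B : X, (Nat.card (setN B.1) : ℂ) *
      ((-1 : ℂ) ^ B.1.card * ((Nat.card (setN B.1) : ℂ)⁻¹ * psiB H α B.1 g))) =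
      (-(Nat.card L : ℂ)⁻¹) • ∑ B : X, (Nat.card (setN B.1) : ℂ) • (fun g => (-1 : ℂ) ^ B.1.card *
        ((Nat.card (setN B.1) : ℂ)⁻¹ * psiB H α B.1 g)) from funext fun g => by
          simp [Finset.sum_apply], classInner_smul_left, classInner_sum_left]
    congr 1
    exact Finset.sum_congr rfl fun B _ => by rw [classInner_smul_left, hz]
  rw [this]
  have h2 : (∑ B : X, (Nat.card (setN B.1) : ℂ) * (z B : ℂ)) = (Nat.card L : ℂ) * (w : ℂ) := by
    have h3 := congrArg (fun n : ℤ => (n : ℂ)) hw
    push_cast at h3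
    simp only [hstab] at h3
    exact h3
  rw [h2]
  push_cast
  field_simp [card_ne_zero_complex L]

end Cfsg.Agent.Lib.Dade
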